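import Mathlib.RingTheory.TensorProduct.MvPolynomial
import Mathlib.LinearAlgebra.TensorProduct.RightExactness
import Mathlib.RingTheory.Flat.Basic
import Mathlib.RingTheory.RingHom.Flat

/-!
Base change of a polynomial presentation.
-/

set_option autoImplicit false

open TensorProduct

namespace Groth.Agent.Ega4late.H544.BaseCh

variable {C C' A σ : Type*} [CommRing C] [CommRing C'] [CommRing A] [Algebra C C'] [Algebra C A]

/-- Base change of a surjection from a polynomial ring. -/
theorem exists_hom (f : MvPolynomial σ C →ₐ[C] A) (hf : Function.Surjective f) :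
    ∃ g : MvPolynomial σ C' →+* A ⊗[C] C', Function.Surjective g ∧
      (∀ b, g (MvPolynomial.map (algebraMap C C') b) = f b ⊗ₜ 1) ∧
      (∀ c : C', g (MvPolynomial.C c) = 1 ⊗ₜ c) ∧
      RingHom.ker g = (RingHom.ker f).map (MvPolynomial.map (algebraMap C C') : MvPolynomial σ C →+* MvPolynomial σ C') := by
  let e₁ : MvPolynomial σ C' ≃+* C' ⊗[C] MvPolynomial σ C :=
    (MvPolynomial.algebraTensorAlgEquiv C C').symm.toRingEquiv
  let e₂ : C' ⊗[C] A ≃+* A ⊗[C] C' := (Algebra.TensorProduct.comm C C' A).toRingEquiv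
  let h : C' ⊗[C] MvPolynomial σ C →ₐ[C] C' ⊗[C] A := Algebra.TensorProduct.map (AlgHom.id C C') f
  have hh : Function.Surjective h := Algebra.TensorProduct.map_surjective (AlgHom.id C C') f
    Function.surjective_id hf
  let g : MvPolynomial σ C' →+* A ⊗[C] C' := (e₂ : C' ⊗[C] A →+* A ⊗[C] C').comp
    ((h : C' ⊗[C] MvPolynomial σ C →+* C' ⊗[C] A).comp (e₁ : MvPolynomial σ C' →+* C' ⊗[C] MvPolynomial σ C))
  have hg : ∀ x, g x = e₂ (h (e₁ x)) := fun x ↦ rfl
  have he₁ : ∀ b : MvPolynomial σ C, e₁ (MvPolynomial.map (algebraMap C C') b) = 1 ⊗ₜ b := fun b ↦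
    MvPolynomial.algebraTensorAlgEquiv_symm_map C C' b
  have he₁C : ∀ c : C', e₁ (MvPolynomial.C c) = c ⊗ₜ 1 := fun c ↦ by
    have := (MvPolynomial.algebraTensorAlgEquiv (σ := σ) C C').symm.commutes c
    exact this
  refine ⟨g, ?_, ?_, ?_, ?_⟩
  · exact e₂.surjective.comp (hh.comp e₁.surjective)
  · intro b
    rw [hg, he₁]
    change e₂ (Algebra.TensorProduct.map (AlgHom.id C C') f (1 ⊗ₜ b)) = _
    rw [Algebra.TensorProduct.map_tmul, map_one]
    exact Algebra.TensorProduct.comm_tmul C (1 : C') (f b)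
  · intro c
    rw [hg, he₁C]
    change e₂ (Algebra.TensorProduct.map (AlgHom.id C C') f (c ⊗ₜ 1)) = _
    rw [Algebra.TensorProduct.map_tmul, map_one]
    exact Algebra.TensorProduct.comm_tmul C c (1 : A)
  · have h1 : RingHom.ker h = (RingHom.ker f).map
        (Algebra.TensorProduct.includeRight : MvPolynomial σ C →ₐ[C] C' ⊗[C] MvPolynomial σ C) :=
      Algebra.TensorProduct.lTensor_ker (A := C') f hf
    have h2 : RingHom.ker g = (RingHom.ker h).comap (e₁ : MvPolynomial σ C' →+* C' ⊗[C] MvPolynomial σ C) := by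
      ext x
      rw [RingHom.mem_ker, hg, Ideal.mem_comap, RingHom.mem_ker, EmbeddingLike.map_eq_zero_iff]
      rfl
    rw [h2, h1]
    have h3 : ((RingHom.ker f).map (Algebra.TensorProduct.includeRight :
        MvPolynomial σ C →ₐ[C] C' ⊗[C] MvPolynomial σ C)).comap
        (e₁ : MvPolynomial σ C' →+* C' ⊗[C] MvPolynomial σ C) =
        ((RingHom.ker f).map (Algebra.TensorProduct.includeRight :
        MvPolynomial σ C →ₐ[C] C' ⊗[C] MvPolynomial σ C)).map
        (e₁.symm : C' ⊗[C] MvPolynomial σ C →+* MvPolynomial σ C') := (Ideal.map_symm e₁).symm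
    rw [h3]
    have h4 : (e₁.symm : C' ⊗[C] MvPolynomial σ C →+* MvPolynomial σ C').comp
        (Algebra.TensorProduct.includeRight : MvPolynomial σ C →ₐ[C] C' ⊗[C] MvPolynomial σ C).toRingHom =
        MvPolynomial.map (algebraMap C C') := by
      refine RingHom.ext fun b ↦ ?_
      change e₁.symm (1 ⊗ₜ b) = _
      rw [← he₁, RingEquiv.symm_apply_apply]
    rw [← h4, ← Ideal.map_map]
    rfl

/-- Base change of polynomial rings is flat. -/
theorem flat_map (σ : Type*) [Module.Flat C C'] :
    (MvPolynomial.map (algebraMap C C') : MvPolynomial σ C →+* MvPolynomial σ C').Flat := by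
  letI : Algebra (MvPolynomial σ C) (MvPolynomial σ C') := MvPolynomial.algebraMvPolynomial
  have h1 : IsBaseChange (MvPolynomial σ C) (IsScalarTower.toAlgHom C C' (MvPolynomial σ C')).toLinearMap :=
    (inferInstance : Algebra.IsPushout C (MvPolynomial σ C) C' (MvPolynomial σ C')).out
  exact Module.Flat.isBaseChange C (MvPolynomial σ C) C' (MvPolynomial σ C') h1

end Groth.Agent.Ega4late.H544.BaseCh
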