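import Mathlib.RingTheory.RegularLocalRing.Defs
import Mathlib.RingTheory.Derivation.Basic
import Mathlib.LinearAlgebra.FiniteDimensional.Lemmas
import Mathlib.RingTheory.Ideal.Cotangent
import Mathlib.LinearAlgebra.Dual.Lemmas

/-!
Cotangent spaces of quotients of a regular local ring and derivations.
-/

set_option autoImplicit false
universe u

open IsLocalRing

namespace Groth.Agent.Ega4late.H544.CotLin

section basic

variable {R : Type u} [CommRing R] [IsLocalRing R]

/-- The span of the classes of the elements of `S` (lying in the maximal ideal) in the cotangent space. -/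
noncomputable def cotSpan (S : Set R) : Submodule (ResidueField R) (CotangentSpace R) :=
  Submodule.span (ResidueField R) ((maximalIdeal R).toCotangent '' {x | (x : R) ∈ S})

theorem toCotangent_mem_cotSpan (S : Set R) (x : maximalIdeal R) (hx : (x : R) ∈ S) :
    (maximalIdeal R).toCotangent x ∈ cotSpan S := Submodule.subset_span ⟨x, hx, rfl⟩

theorem cotSpan_mono {S T : Set R} (h : S ⊆ T) : cotSpan S ≤ cotSpan T :=
  Submodule.span_mono (Set.image_mono fun _ hx ↦ h hx)

theorem residue_smul (r : R) (x : CotangentSpace R) : residue R r • x = r • x := by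
  have : residue R r = algebraMap R (ResidueField R) r := rfl
  rw [this, algebraMap_smul]

/-- The span of the classes of the elements of an ideal is spanned by the classes of generators. -/
theorem cotSpan_span (S : Set R) (hS : S ⊆ maximalIdeal R) :
    cotSpan (Ideal.span S : Set R) = cotSpan S := by
  refine le_antisymm ?_ (cotSpan_mono Ideal.subset_span)
  rw [cotSpan, Submodule.span_le]
  rintro _ ⟨x, hx, rfl⟩
  have hle : Ideal.span S ≤ maximalIdeal R := Ideal.span_le.mpr hS
  have key : ∀ y (hy : y ∈ Ideal.span S), (maximalIdeal R).toCotangent ⟨y, hle hy⟩ ∈ cotSpan S := by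
    intro y hy
    induction hy using Submodule.span_induction with
    | mem y hy => exact toCotangent_mem_cotSpan S _ hy
    | zero =>
      have : (⟨0, hle (Submodule.zero_mem _)⟩ : maximalIdeal R) = 0 := rfl
      rw [this, map_zero]
      exact Submodule.zero_mem _
    | add a b ha hb h1 h2 =>
      have : (⟨a + b, hle (Submodule.add_mem _ ha hb)⟩ : maximalIdeal R) = ⟨a, hle ha⟩ + ⟨b, hle hb⟩ := rfl
      rw [this, map_add]
      exact Submodule.add_mem _ h1 h2
    | smul r a ha h1 =>
      have : (⟨r • a, hle (Submodule.smul_mem _ _ ha)⟩ : maximalIdeal R) = r • ⟨a, hle ha⟩ := rfl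
      rw [this, map_smul, ← residue_smul]
      exact Submodule.smul_mem _ _ h1
  exact key x hx

end basic

section theta

variable {R : Type u} [CommRing R] [IsLocalRing R] {ι : Type*}

/-- The linear map on the cotangent space given by a family of derivations with values in the residue field. -/
noncomputable def theta (δ : ι → Derivation ℤ R (ResidueField R)) :
    CotangentSpace R →ₗ[ResidueField R] (ι → ResidueField R) :=
  let f : CotangentSpace R →ₗ[R] (ι → ResidueField R) :=
    Ideal.Cotangent.lift
      { toFun := fun x l ↦ δ l (x : R)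
        map_add' := fun x y ↦ by
          ext l
          change δ l ((x : R) + y) = δ l x + δ l y
          rw [map_add]
        map_smul' := fun r x ↦ by
          ext l
          change δ l (r * (x : R)) = r • δ l x
          rw [Derivation.leibniz]
          have : (x : R) • δ l r = 0 := by
            rw [← algebraMap_smul (ResidueField R) (x : R) (δ l r)]
            have h : algebraMap R (ResidueField R) (x : R) = 0 := (residue_eq_zero_iff _).mpr x.2
            rw [h, zero_smul]
          rw [this, add_zero] }
      (fun x y ↦ by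
        ext l
        change δ l ((x : R) * y) = 0
        have h : ∀ (x : maximalIdeal R) (z : ResidueField R), (x : R) • z = 0 := fun x z ↦ by
          rw [← algebraMap_smul (ResidueField R) (x : R) z]
          have h : algebraMap R (ResidueField R) (x : R) = 0 := (residue_eq_zero_iff _).mpr x.2
          rw [h, zero_smul]
        rw [Derivation.leibniz, h, h, add_zero])
  { toFun := f
    map_add' := map_add f
    map_smul' := fun c x ↦ by
      obtain ⟨r, rfl⟩ := residue_surjective c
      rw [residue_smul, map_smul, RingHom.id_apply]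
      ext l
      change r • (f x l) = residue R r * f x l
      rw [Algebra.smul_def]
      rfl }

theorem theta_toCotangent (δ : ι → Derivation ℤ R (ResidueField R)) (x : maximalIdeal R) (l : ι) :
    theta δ ((maximalIdeal R).toCotangent x) l = δ l (x : R) := rfl

theorem map_theta_cotSpan (δ : ι → Derivation ℤ R (ResidueField R)) (S : Set R) (hS : S ⊆ maximalIdeal R) :
    (cotSpan S).map (theta δ) = Submodule.span (ResidueField R) ((fun x l ↦ δ l x) '' S) := by
  rw [cotSpan, Submodule.map_span, ← Set.image_comp]
  congr 1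
  ext v
  constructor
  · rintro ⟨x, hx, rfl⟩
    exact ⟨x, hx, rfl⟩
  · rintro ⟨x, hx, rfl⟩
    exact ⟨⟨x, hS hx⟩, hx, rfl⟩

/-- The dual criterion for injectivity of `theta`. -/
theorem theta_injective [Fintype ι] (δ : ι → Derivation ℤ R (ResidueField R))
    (h : ∀ φ : CotangentSpace R →ₗ[ResidueField R] ResidueField R, ∃ c : ι → ResidueField R,
      ∀ x : maximalIdeal R, φ ((maximalIdeal R).toCotangent x) = ∑ l, c l * δ l (x : R)) :
    Function.Injective (theta δ) := by
  rw [injective_iff_map_eq_zero]
  intro x hx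
  rw [← Module.forall_dual_apply_eq_zero_iff (ResidueField R)]
  intro φ
  obtain ⟨c, hc⟩ := h φ
  obtain ⟨y, rfl⟩ := Ideal.toCotangent_surjective _ x
  rw [hc]
  refine Finset.sum_eq_zero fun l _ ↦ ?_
  rw [← theta_toCotangent, hx, Pi.zero_apply, mul_zero]

end theta

section regular

variable {R : Type u} [CommRing R] [IsLocalRing R] [IsNoetherianRing R]

open Module

theorem exists_lift_basis (J : Ideal R) (hJ : J ≤ maximalIdeal R) :
    ∃ (c : ℕ) (y : Fin c → maximalIdeal R),
      c + finrank (ResidueField R) (cotSpan (J : Set R)) = finrank (ResidueField R) (CotangentSpace R) ∧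
      maximalIdeal R ≤ Ideal.span (Set.range fun i ↦ (y i : R)) ⊔ J := by
  set W := cotSpan (J : Set R) with hW
  set c := finrank (ResidueField R) (CotangentSpace R ⧸ W) with hc
  let b := Module.finBasis (ResidueField R) (CotangentSpace R ⧸ W)
  have hy : ∀ i, ∃ y : maximalIdeal R, W.mkQ ((maximalIdeal R).toCotangent y) = b i := fun i ↦ by
    obtain ⟨z, hz⟩ := W.mkQ_surjective (b i)
    obtain ⟨y, rfl⟩ := Ideal.toCotangent_surjective _ z
    exact ⟨y, hz⟩
  choose y hy using hy
  refine ⟨c, y, ?_, ?_⟩
  · rw [hc]
    exact Submodule.finrank_quotient_add_finrank W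
  · let s : Set (maximalIdeal R) := Set.range y ∪ {x | (x : R) ∈ J}
    have hspan : Submodule.span (ResidueField R) ((maximalIdeal R).toCotangent '' s) = ⊤ := by
      rw [Set.image_union, Submodule.span_union]
      change _ ⊔ W = ⊤
      rw [← Set.range_comp]
      have h1 : (Submodule.span (ResidueField R) (Set.range ((maximalIdeal R).toCotangent ∘ y))).map W.mkQ = ⊤ := by
        rw [Submodule.map_span, ← Set.range_comp, ← b.span_eq]
        congr 1
        ext v
        simp only [Set.mem_range, Function.comp_apply, hy]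
      have h2 := congrArg (Submodule.comap W.mkQ) h1
      rw [Submodule.comap_map_eq, Submodule.ker_mkQ, Submodule.comap_top] at h2
      exact h2
    rw [CotangentSpace.span_image_eq_top_iff] at hspan
    intro x hx
    have h3 : (⟨x, hx⟩ : maximalIdeal R) ∈ Submodule.span R s := by rw [hspan]; trivial
    have h4 : x ∈ (Submodule.span R s).map (maximalIdeal R).subtype := ⟨⟨x, hx⟩, h3, rfl⟩
    rw [Submodule.map_span] at h4
    refine (Submodule.span_le (p := Ideal.span (Set.range fun i ↦ (y i : R)) ⊔ J)).mpr ?_ h4
    rintro _ ⟨z, hz | hz, rfl⟩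
    · obtain ⟨i, rfl⟩ := hz
      exact Ideal.mem_sup_left (Ideal.subset_span ⟨i, rfl⟩)
    · exact Ideal.mem_sup_right hz

/-- A quotient `R ⧸ J` of a Noetherian local ring whose relations cut down the cotangent space enough is regular. -/
theorem isRegularLocalRing_quotient (J : Ideal R) (hJ : J ≤ maximalIdeal R)
    (h : (finrank (ResidueField R) (CotangentSpace R) : WithBot ℕ∞) ≤
      ringKrullDim (R ⧸ J) + (finrank (ResidueField R) (cotSpan (J : Set R)) : WithBot ℕ∞)) :
    IsRegularLocalRing (R ⧸ J) := by
  have hJtop : J ≠ ⊤ := fun h ↦ (maximalIdeal.isMaximal R).ne_top (top_le_iff.mp (h ▸ hJ))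
  have : Nontrivial (R ⧸ J) := Ideal.Quotient.nontrivial_iff.mpr hJtop
  have : IsLocalRing (R ⧸ J) := IsLocalRing.of_surjective' (Ideal.Quotient.mk J) Ideal.Quotient.mk_surjective
  obtain ⟨c, y, hc, hy⟩ := exists_lift_basis J hJ
  apply IsRegularLocalRing.of_spanFinrank_maximalIdeal_le
  have h1 : maximalIdeal (R ⧸ J) = Ideal.span (Set.range fun i ↦ Ideal.Quotient.mk J (y i : R)) := by
    apply le_antisymm
    · intro z hz
      obtain ⟨x, rfl⟩ := Ideal.Quotient.mk_surjective z
      have hx : x ∈ maximalIdeal R := by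
        rw [mem_maximalIdeal, mem_nonunits_iff] at hz ⊢
        exact fun h ↦ hz (h.map _)
      have h2 := Ideal.mem_map_of_mem (Ideal.Quotient.mk J) (hy hx)
      rw [Ideal.map_sup, Ideal.map_quotient_self, sup_bot_eq, Ideal.map_span, ← Set.range_comp] at h2
      exact h2
    · rw [Ideal.span_le]
      rintro _ ⟨i, rfl⟩
      rw [SetLike.mem_coe, mem_maximalIdeal, mem_nonunits_iff]
      intro hu
      have hloc : IsLocalHom (Ideal.Quotient.mk J) := IsLocalHom.of_surjective _ Ideal.Quotient.mk_surjective
      exact (y i).2 (isUnit_of_map_unit _ _ hu)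
  have h2 : (maximalIdeal (R ⧸ J)).spanFinrank ≤ c := by
    rw [h1]
    refine (Submodule.spanFinrank_span_le_ncard_of_finite (Set.finite_range _)).trans ?_
    rw [← Set.image_univ]
    refine (Set.ncard_image_le Set.finite_univ).trans ?_
    rw [Set.ncard_univ, Nat.card_fin]
  rw [← hc, Nat.cast_add] at h
  have h3 : (c : WithBot ℕ∞) ≤ ringKrullDim (R ⧸ J) := by
    have h4 : ringKrullDim (R ⧸ J) ≠ ⊤ := ringKrullDim_ne_top
    have h5 : ringKrullDim (R ⧸ J) ≠ ⊥ := ringKrullDim_ne_bot
    obtain ⟨t, ht⟩ : ∃ t : ℕ, ringKrullDim (R ⧸ J) = t := by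
      obtain ⟨a, ha⟩ := WithBot.ne_bot_iff_exists.mp h5
      rw [← ha] at h4 ⊢
      have h6 : a ≠ ⊤ := fun h ↦ h4 (by rw [h]; rfl)
      obtain ⟨t, rfl⟩ := WithTop.ne_top_iff_exists.mp h6
      exact ⟨t, rfl⟩
    rw [ht] at h ⊢
    have h7 : c + finrank (ResidueField R) (cotSpan (J : Set R)) ≤
      t + finrank (ResidueField R) (cotSpan (J : Set R)) := by exact_mod_cast h
    exact_mod_cast Nat.le_of_add_le_add_right h7
  exact (Nat.cast_le.mpr h2).trans h3

/-- If `R ⧸ J` is a local ring whose maximal ideal is generated by `c` elements, the cotangent space of `R` has dimension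
at most `c` plus the dimension of the span of the relations. -/
theorem finrank_cotangentSpace_le (J : Ideal R) (hJ : J ≤ maximalIdeal R) [IsLocalRing (R ⧸ J)] :
    finrank (ResidueField R) (CotangentSpace R) ≤ (maximalIdeal (R ⧸ J)).spanFinrank +
      finrank (ResidueField R) (cotSpan (J : Set R)) := by
  obtain ⟨s, hs, hs2⟩ := Submodule.FG.exists_span_finset_card_eq_spanFinrank
    (IsNoetherian.noetherian (maximalIdeal (R ⧸ J)))
  have hloc : IsLocalHom (Ideal.Quotient.mk J) := IsLocalHom.of_surjective _ Ideal.Quotient.mk_surjective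
  have hy : ∀ z : s, ∃ y : maximalIdeal R, Ideal.Quotient.mk J (y : R) = z := fun z ↦ by
    obtain ⟨x, hx⟩ := Ideal.Quotient.mk_surjective (z : R ⧸ J)
    refine ⟨⟨x, ?_⟩, hx⟩
    have hz : (z : R ⧸ J) ∈ maximalIdeal (R ⧸ J) := by
      rw [← hs2]; exact Submodule.subset_span z.2
    rw [mem_maximalIdeal, mem_nonunits_iff] at hz ⊢
    rw [← hx] at hz
    exact fun h ↦ hz (h.map _)
  choose y hy using hy
  have hle : (⊤ : Submodule (ResidueField R) (CotangentSpace R)) ≤
      Submodule.span (ResidueField R) (Set.range fun z : s ↦ (maximalIdeal R).toCotangent (y z)) ⊔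
        cotSpan (J : Set R) := by
    rintro v -
    obtain ⟨x, rfl⟩ := Ideal.toCotangent_surjective _ v
    have hx : Ideal.Quotient.mk J (x : R) ∈ maximalIdeal (R ⧸ J) := by
      rw [mem_maximalIdeal, mem_nonunits_iff]
      intro hu
      exact x.2 (isUnit_of_map_unit _ _ hu)
    rw [← hs2] at hx
    have hx' : Ideal.Quotient.mk J (x : R) ∈ Submodule.span (R ⧸ J) (Set.range fun z : s ↦ (z : R ⧸ J)) := by
      have hr : (Set.range fun z : s ↦ (z : R ⧸ J)) = (s : Set (R ⧸ J)) := Subtype.range_coe
      rw [hr]
      exact hx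
    obtain ⟨a, ha⟩ := (Submodule.mem_span_range_iff_exists_fun (R ⧸ J)).mp hx'
    have : ∀ z, ∃ r : R, Ideal.Quotient.mk J r = a z := fun z ↦ Ideal.Quotient.mk_surjective _
    choose r hr using this
    have h1 : (x : R) - ∑ z, r z * (y z : R) ∈ J := by
      rw [← Ideal.Quotient.eq_zero_iff_mem, map_sub, sub_eq_zero, ← ha, map_sum]
      refine Finset.sum_congr rfl fun z _ ↦ ?_
      rw [map_mul, hr, hy, smul_eq_mul]
    have h2 : x = (∑ z, r z • y z) + (x - ∑ z, r z • y z) := by abel
    rw [h2, map_add, map_sum]
    refine Submodule.add_mem_sup (Submodule.sum_mem _ fun z _ ↦ ?_) ?_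
    · rw [map_smul, ← residue_smul]
      exact Submodule.smul_mem _ _ (Submodule.subset_span ⟨z, rfl⟩)
    · refine toCotangent_mem_cotSpan _ _ ?_
      have h3 : ((x - ∑ z, r z • y z : maximalIdeal R) : R) = (x : R) - ∑ z, r z * (y z : R) := by
        simp
      rw [h3]
      exact h1
  have h5 := Submodule.finrank_mono hle
  rw [finrank_top] at h5
  refine h5.trans ((Submodule.finrank_add_le_finrank_add_finrank _ _).trans ?_)
  refine Nat.add_le_add_right ?_ _
  refine (finrank_range_le_card _).trans ?_
  rw [← hs, Fintype.card_coe]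

end regular

end Groth.Agent.Ega4late.H544.CotLin
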