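import Mathlib.LinearAlgebra.TensorProduct.RightExactness
import Mathlib.LinearAlgebra.TensorProduct.Pi
import Mathlib.LinearAlgebra.Dimension.Constructions
import Mathlib.LinearAlgebra.FiniteDimensional.Lemmas

/-!
The rank of a fibre of a finitely presented-like module.
-/

set_option autoImplicit false

open TensorProduct

namespace Groth.Agent.Ega4late.H544.FibreRank

/-- Base change of a presentation: the kernel of `κ^ι → κ ⊗ Ω` is spanned by the images of the relations. -/
theorem exists_presentation {A Ω κ ι : Type*} [CommRing A] [AddCommGroup Ω] [Module A Ω] [Fintype ι]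
    [CommRing κ] [Algebra A κ] (π : (ι → A) →ₗ[A] Ω) (hπ : Function.Surjective π) (S : Set (ι → A))
    (hker : LinearMap.ker π = Submodule.span A S) :
    ∃ θ : (ι → κ) →ₗ[κ] κ ⊗[A] Ω, Function.Surjective θ ∧
      LinearMap.ker θ = Submodule.span κ ((fun v : ι → A ↦ fun i ↦ algebraMap A κ (v i)) '' S) := by
  classical
  let e : κ ⊗[A] (ι → A) ≃ₗ[κ] (ι → κ) := TensorProduct.piScalarRight A κ κ ι
  have he : ∀ (c : κ) (v : ι → A), e (c ⊗ₜ v) = c • fun i ↦ algebraMap A κ (v i) := by
    intro c v
    ext i
    simp only [e, TensorProduct.piScalarRight_apply, TensorProduct.piScalarRightHom_tmul, Pi.smul_apply,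
      smul_eq_mul, Algebra.smul_def, mul_comm]
  let θ : (ι → κ) →ₗ[κ] κ ⊗[A] Ω := (π.baseChange κ) ∘ₗ e.symm.toLinearMap
  have hex : Function.Exact ((LinearMap.ker π).subtype.baseChange κ) (π.baseChange κ) := by
    have := lTensor_exact κ (f := (LinearMap.ker π).subtype) (g := π)
      (LinearMap.exact_subtype_ker_map π) hπ
    exact this
  have hker' : LinearMap.ker (π.baseChange κ) = LinearMap.range ((LinearMap.ker π).subtype.baseChange κ) :=
    (LinearMap.exact_iff.mp hex)
  refine ⟨θ, ?_, ?_⟩
  · have h0 : Function.Surjective (π.baseChange κ) := LinearMap.lTensor_surjective κ hπ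
    exact h0.comp e.symm.surjective
  · have h1 : LinearMap.ker θ = (LinearMap.ker (π.baseChange κ)).map e.toLinearMap := by
      rw [LinearMap.ker_comp]
      ext x
      simp only [Submodule.mem_comap, Submodule.mem_map, LinearEquiv.coe_coe]
      exact ⟨fun h ↦ ⟨e.symm x, h, by simp⟩, fun ⟨y, hy, hyx⟩ ↦ by rw [← hyx]; simpa using hy⟩
    rw [h1, hker']
    apply le_antisymm
    · rw [Submodule.map_le_iff_le_comap]
      rintro _ ⟨z, rfl⟩
      induction z using TensorProduct.induction_on with
      | zero => simp
      | add x y hx hy => rw [map_add]; exact Submodule.add_mem _ hx hy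
      | tmul c v =>
        obtain ⟨v, hv⟩ := v
        rw [Submodule.mem_comap, LinearMap.baseChange_tmul, LinearEquiv.coe_coe, Submodule.subtype_apply, he]
        refine Submodule.smul_mem _ _ ?_
        have hv2 : v ∈ Submodule.span A S := hker ▸ hv
        change (fun i ↦ algebraMap A κ (v i)) ∈ _
        clear hv
        induction hv2 using Submodule.span_induction with
        | mem x hx => exact Submodule.subset_span ⟨x, hx, rfl⟩
        | zero =>
          have : (fun i ↦ algebraMap A κ ((0 : ι → A) i)) = 0 := by ext i; simp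
          rw [this]; exact Submodule.zero_mem _
        | add x y _ _ hx hy =>
          have : (fun i ↦ algebraMap A κ ((x + y) i)) =
            (fun i ↦ algebraMap A κ (x i)) + fun i ↦ algebraMap A κ (y i) := by ext i; simp
          rw [this]; exact Submodule.add_mem _ hx hy
        | smul a x _ hx =>
          have : (fun i ↦ algebraMap A κ ((a • x) i)) =
            (algebraMap A κ a) • fun i ↦ algebraMap A κ (x i) := by ext i; simp
          rw [this]; exact Submodule.smul_mem _ _ hx
    · rw [Submodule.span_le]
      rintro _ ⟨v, hv, rfl⟩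
      have hv' : v ∈ LinearMap.ker π := hker ▸ Submodule.subset_span hv
      refine ⟨(1 : κ) ⊗ₜ v, ⟨(1 : κ) ⊗ₜ ⟨v, hv'⟩, rfl⟩, ?_⟩
      change e _ = _
      rw [he, one_smul]

/-- The rank of the fibre of a module presented by relations `S ⊆ A^ι`. -/
theorem finrank_add_finrank {A Ω κ ι : Type*} [CommRing A] [AddCommGroup Ω] [Module A Ω] [Fintype ι]
    [Field κ] [Algebra A κ] (π : (ι → A) →ₗ[A] Ω) (hπ : Function.Surjective π) (S : Set (ι → A))
    (hker : LinearMap.ker π = Submodule.span A S) :
    Module.finrank κ (κ ⊗[A] Ω) +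
      Module.finrank κ (Submodule.span κ ((fun v : ι → A ↦ fun i ↦ algebraMap A κ (v i)) '' S)) =
        Fintype.card ι := by
  obtain ⟨θ, hθ, hk⟩ := exists_presentation (κ := κ) π hπ S hker
  have h1 := LinearMap.finrank_range_add_finrank_ker θ
  rw [LinearMap.range_eq_top.mpr hθ, finrank_top, hk, Module.finrank_fintype_fun_eq_card] at h1
  exact h1

end Groth.Agent.Ega4late.H544.FibreRank
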