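import Mathlib.RingTheory.LocalRing.Module
import Mathlib.RingTheory.LocalRing.ResidueField.Ideal
import Mathlib.RingTheory.Localization.FractionRing
import Mathlib.LinearAlgebra.Dimension.OrzechProperty
import Mathlib.LinearAlgebra.Dimension.Constructions

/-!
Ranks of the fibres of a finite module, and freeness criteria.
-/

set_option autoImplicit false
universe u

namespace Groth.Agent.Ega4late.H544.FieldRank

open IsLocalRing TensorProduct

section lift

variable {A : Type u} [CommRing A] (p : Ideal A) [p.IsPrime] (κ : Type u) [Field κ] [Algebra A κ]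
  (h : RingHom.ker (algebraMap A κ) = p)

include h in
theorem exists_lift : ∃ ρ : p.ResidueField →+* κ, ∀ a, ρ (algebraMap A p.ResidueField a) = algebraMap A κ a := by
  refine ⟨Ideal.ResidueField.lift p (algebraMap A κ) h.ge ?_, fun a ↦ Ideal.ResidueField.lift_algebraMap _ _ _ _ a⟩
  intro a ha
  change IsUnit (algebraMap A κ a)
  rw [isUnit_iff_ne_zero, Ne, ← RingHom.mem_ker, h]
  exact ha

include h in
theorem exists_lift' : ∃ ρ : Localization.AtPrime p →+* κ,
    ∀ a, ρ (algebraMap A (Localization.AtPrime p) a) = algebraMap A κ a := by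
  refine ⟨IsLocalization.lift (M := p.primeCompl) (g := algebraMap A κ) ?_, fun a ↦ IsLocalization.lift_eq _ a⟩
  rintro ⟨a, ha⟩
  rw [isUnit_iff_ne_zero, Ne, ← RingHom.mem_ker, h]
  exact ha

end lift

section rank

variable {A : Type u} [CommRing A] (M : Type u) [AddCommGroup M] [Module A M] (p : Ideal A) [p.IsPrime]

/-- The rank of the fibre only depends on the kernel. -/
theorem finrank_eq_residueField (κ : Type u) [Field κ] [Algebra A κ] (h : RingHom.ker (algebraMap A κ) = p) :
    Module.finrank κ (κ ⊗[A] M) = Module.finrank p.ResidueField (p.ResidueField ⊗[A] M) := by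
  obtain ⟨ρ, hρ⟩ := exists_lift p κ h
  letI : Algebra p.ResidueField κ := ρ.toAlgebra
  haveI : IsScalarTower A p.ResidueField κ := IsScalarTower.of_algebraMap_eq fun a ↦ (hρ a).symm
  rw [← (AlgebraTensorModule.cancelBaseChange A p.ResidueField κ κ M).finrank_eq]
  exact Module.finrank_baseChange

theorem finrank_eq (κ κ' : Type u) [Field κ] [Algebra A κ] [Field κ'] [Algebra A κ']
    (h : RingHom.ker (algebraMap A κ) = p) (h' : RingHom.ker (algebraMap A κ') = p) :
    Module.finrank κ (κ ⊗[A] M) = Module.finrank κ' (κ' ⊗[A] M) := by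
  rw [finrank_eq_residueField M p κ h, finrank_eq_residueField M p κ' h']

/-- The fibre of the localization. -/
theorem finrank_localized (κ : Type u) [Field κ] [Algebra A κ] [Algebra (Localization.AtPrime p) κ]
    [IsScalarTower A (Localization.AtPrime p) κ] :
    Module.finrank κ (κ ⊗[Localization.AtPrime p] LocalizedModule p.primeCompl M) =
      Module.finrank κ (κ ⊗[A] M) := by
  rw [← (AlgebraTensorModule.cancelBaseChange A (Localization.AtPrime p) κ κ M).finrank_eq]
  exact ((LocalizedModule.equivTensorProduct p.primeCompl M).baseChange (Localization.AtPrime p) κ _ _).finrank_eq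

/-- (F1): if the localization is free of rank `n`, the fibre has rank `n`. -/
theorem finrank_of_free (n : ℕ) (hfree : Module.Free (Localization.AtPrime p) (LocalizedModule p.primeCompl M))
    (hn : Module.finrank (Localization.AtPrime p) (LocalizedModule p.primeCompl M) = n)
    (κ : Type u) [Field κ] [Algebra A κ] (h : RingHom.ker (algebraMap A κ) = p) :
    Module.finrank κ (κ ⊗[A] M) = n := by
  obtain ⟨ρ, hρ⟩ := exists_lift' p κ h
  letI : Algebra (Localization.AtPrime p) κ := ρ.toAlgebra
  haveI : IsScalarTower A (Localization.AtPrime p) κ := IsScalarTower.of_algebraMap_eq fun a ↦ (hρ a).symm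
  rw [← finrank_localized M p κ, Module.finrank_baseChange, hn]

end rank

section free

/-- Equality of the ranks at the closed and at a generic point implies freeness. -/
theorem free_of_ranks {O M : Type u} [CommRing O] [IsLocalRing O] [AddCommGroup M] [Module O M]
    [Module.Finite O M] (n : ℕ)
    (h1 : Module.finrank (ResidueField O) (ResidueField O ⊗[O] M) ≤ n)
    (L : Type u) [Field L] [Algebra O L] (hL : Function.Injective (algebraMap O L))
    (h2 : n ≤ Module.finrank L (L ⊗[O] M)) :
    Module.Free O M ∧ Module.finrank O M = n := by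
  obtain ⟨r, hr⟩ : ∃ r, r = Module.finrank (ResidueField O) (ResidueField O ⊗[O] M) := ⟨_, rfl⟩
  let b : Module.Basis (Fin r) (ResidueField O) (ResidueField O ⊗[O] M) :=
    (Module.finBasisOfFinrankEq (ResidueField O) (ResidueField O ⊗[O] M) hr.symm)
  have hsurj : Function.Surjective (TensorProduct.mk O (ResidueField O) M 1) :=
    TensorProduct.mk_surjective O M (ResidueField O) residue_surjective
  choose f hf using fun i ↦ hsurj (b i)
  have hspan : Submodule.span O (Set.range f) = ⊤ := span_eq_top_of_tmul_eq_basis f b hf
  have hspan' : (⊤ : Submodule L (L ⊗[O] M)) ≤ Submodule.span L (Set.range fun i ↦ (1 : L) ⊗ₜ[O] f i) := by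
    have := Submodule.baseChange_span (R := O) (A := L) (Set.range f)
    rw [hspan, Submodule.baseChange_top] at this
    rw [this, ← Set.range_comp]
    rfl
  have hle : Module.finrank L (L ⊗[O] M) ≤ r := by
    have h3 := finrank_range_le_card (R := L) (fun i : Fin r ↦ (1 : L) ⊗ₜ[O] f i)
    rw [Set.finrank, top_le_iff.mp hspan', finrank_top, Fintype.card_fin] at h3
    exact h3
  have hrn : r = n := le_antisymm (hr ▸ h1) (h2.trans hle)
  have hcard : Fintype.card (Fin r) = Module.finrank L (L ⊗[O] M) := by
    rw [Fintype.card_fin]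
    exact le_antisymm (hrn.le.trans h2) hle
  have hLI : LinearIndependent L (fun i : Fin r ↦ (1 : L) ⊗ₜ[O] f i) :=
    linearIndependent_of_top_le_span_of_card_eq_finrank hspan' hcard
  have hLI' : LinearIndependent O f := by
    rw [Fintype.linearIndependent_iff]
    intro c hc i
    have h4 : ∑ j, (algebraMap O L (c j)) • ((1 : L) ⊗ₜ[O] f j) = 0 := by
      have h5 := congrArg (TensorProduct.mk O L M 1) hc
      rw [map_zero, map_sum] at h5
      rw [← h5]
      refine Finset.sum_congr rfl fun j _ ↦ ?_
      rw [map_smul, TensorProduct.mk_apply, algebraMap_smul]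
    exact hL (((Fintype.linearIndependent_iff.mp hLI) _ h4 i).trans (map_zero _).symm)
  let B : Module.Basis (Fin r) O M := Module.Basis.mk hLI' hspan.ge
  refine ⟨Module.Free.of_basis B, ?_⟩
  rw [Module.finrank_eq_card_basis B, Fintype.card_fin, hrn]

/-- (F2): freeness of the localization from the ranks at `p` and at a minimal prime. -/
theorem free_localized {A M : Type u} [CommRing A] [AddCommGroup M] [Module A M] [Module.Finite A M]
    (p : Ideal A) [p.IsPrime] (hdom : IsDomain (Localization.AtPrime p)) (n : ℕ)
    (h1 : ∃ (κ : Type u) (_ : Field κ) (_ : Algebra A κ), RingHom.ker (algebraMap A κ) = p ∧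
      Module.finrank κ (κ ⊗[A] M) ≤ n)
    (q : Ideal A) (hqmin : q ∈ minimalPrimes A) (hq : q ≤ p)
    (h2 : ∃ (κ : Type u) (_ : Field κ) (_ : Algebra A κ), RingHom.ker (algebraMap A κ) = q ∧
      n ≤ Module.finrank κ (κ ⊗[A] M)) :
    Module.Free (Localization.AtPrime p) (LocalizedModule p.primeCompl M) ∧
      Module.finrank (Localization.AtPrime p) (LocalizedModule p.primeCompl M) = n := by
  have hqp : q.IsPrime := hqmin.1.1
  have : IsScalarTower A (Localization.AtPrime p) (FractionRing (Localization.AtPrime p)) := inferInstance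
  have hinj := IsFractionRing.injective (Localization.AtPrime p) (FractionRing (Localization.AtPrime p))
  have hker : RingHom.ker (algebraMap A (FractionRing (Localization.AtPrime p))) = q := by
    have hle : RingHom.ker (algebraMap A (FractionRing (Localization.AtPrime p))) ≤ q := by
      intro a ha
      have h3 : algebraMap A (Localization.AtPrime p) a = 0 := hinj (by
        rw [map_zero, ← IsScalarTower.algebraMap_apply A (Localization.AtPrime p)]
        exact ha)
      rw [IsLocalization.map_eq_zero_iff p.primeCompl] at h3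
      obtain ⟨s, hs⟩ := h3
      exact (hqp.mem_or_mem (hs ▸ q.zero_mem : (s : A) * a ∈ q)).resolve_left fun h ↦ s.2 (hq h)
    exact le_antisymm hle (hqmin.2 ⟨RingHom.ker_isPrime _, bot_le⟩ hle)
  refine free_of_ranks n ?_ (FractionRing (Localization.AtPrime p)) hinj ?_
  · obtain ⟨κ, _, _, hκ, hle⟩ := h1
    have h4 := finrank_eq_residueField M p κ hκ
    have h5 := finrank_localized M p p.ResidueField
    rw [← h5] at h4
    exact h4 ▸ hle
  · obtain ⟨κ, _, _, hκ, hle⟩ := h2
    rw [finrank_localized, ← finrank_eq M q κ _ hκ hker]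
    exact hle

end free

end Groth.Agent.Ega4late.H544.FieldRank
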