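import Groth.Agent.Ega4late.H544.PolyDer
import Mathlib.RingTheory.MvPowerSeries.Basic

/-!
The standard frame of derivations on `k⟦T_1, …, T_d⟧[X_1, …, X_m]`.
-/

set_option autoImplicit false
universe u

namespace Groth.Agent.Ega4late.H544.Frame

open Groth.Agent.Ega4late.H544.PolyDer

/-- The power series ring `k⟦T_1, …, T_d⟧`. -/
abbrev PS (k : Type*) [CommRing k] (d : ℕ) := MvPowerSeries (Fin d) k

/-- The ring `k⟦T_1, …, T_d⟧[X_1, …, X_m]`. -/
abbrev PR (k : Type*) [CommRing k] (d m : ℕ) := MvPolynomial (Fin m) (MvPowerSeries (Fin d) k)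

section

variable (k : Type*) [CommRing k] (d m : ℕ)

/-- `∂/∂T_i` on `k⟦T⟧[X]`. -/
noncomputable def dT (i : Fin d) : Derivation k (PR k d m) (PR k d m) :=
  (exists_derivation (k := k) (C := PS k d) (σ := Fin m) (M := PR k d m)
    ((Algebra.linearMap (PS k d) (PR k d m)).compDer (MvPowerSeries.pderiv k i)) (fun _ => 0)).choose

variable {k d m}

theorem dT_C (i : Fin d) (c : PS k d) :
    dT k d m i (MvPolynomial.C c) = MvPolynomial.C (MvPowerSeries.pderiv k i c) :=
  (exists_derivation (k := k) (C := PS k d) (σ := Fin m) (M := PR k d m)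
    ((Algebra.linearMap (PS k d) (PR k d m)).compDer (MvPowerSeries.pderiv k i)) (fun _ => 0)).choose_spec.1 c

theorem dT_X (i : Fin d) (j : Fin m) : dT k d m i (MvPolynomial.X j) = 0 :=
  (exists_derivation (k := k) (C := PS k d) (σ := Fin m) (M := PR k d m)
    ((Algebra.linearMap (PS k d) (PR k d m)).compDer (MvPowerSeries.pderiv k i)) (fun _ => 0)).choose_spec.2 j

variable (k d m)

/-- The frame of derivations `∂/∂T_i`, `∂/∂X_j`. -/
noncomputable def der (l : Fin d ⊕ Fin m) : Derivation k (PR k d m) (PR k d m) :=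
  Sum.elim (fun i => dT k d m i) (fun j => (MvPolynomial.pderiv j).restrictScalars k) l

/-- The coordinates `T_i`, `X_j`. -/
noncomputable def var (l : Fin d ⊕ Fin m) : PR k d m :=
  Sum.elim (fun i => MvPolynomial.C (MvPowerSeries.X i)) (fun j => MvPolynomial.X j) l

variable {k d m}

@[simp] theorem der_inl_C (i : Fin d) (c : PS k d) :
    der k d m (Sum.inl i) (MvPolynomial.C c) = MvPolynomial.C (MvPowerSeries.pderiv k i c) := dT_C i c

@[simp] theorem der_inl_X (i : Fin d) (j : Fin m) : der k d m (Sum.inl i) (MvPolynomial.X j) = 0 := dT_X i j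

@[simp] theorem der_inr_C (j : Fin m) (c : PS k d) :
    der k d m (Sum.inr j) (MvPolynomial.C c) = 0 := by
  change MvPolynomial.pderiv j (MvPolynomial.C c) = 0
  exact MvPolynomial.pderiv_C

theorem der_inr (j : Fin m) (f : PR k d m) :
    der k d m (Sum.inr j) f = MvPolynomial.pderiv j f := rfl

theorem der_inr_X (j j' : Fin m) : der k d m (Sum.inr j) (MvPolynomial.X j') = if j = j' then 1 else 0 := by
  rw [der_inr, MvPolynomial.pderiv_X]
  by_cases h : j = j'
  · subst h; simp
  · rw [if_neg h, Pi.single_eq_of_ne' h]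

theorem der_var (l l' : Fin d ⊕ Fin m) : der k d m l (var k d m l') = if l = l' then 1 else 0 := by
  rcases l with i | j <;> rcases l' with i' | j'
  · change der k d m (Sum.inl i) (MvPolynomial.C (MvPowerSeries.X i')) = _
    rw [der_inl_C]
    by_cases h : i = i'
    · subst h; simp
    · rw [if_neg (fun h' => h (Sum.inl_injective h')), MvPowerSeries.pderiv_X_of_ne (Ne.symm h), map_zero]
  · rw [if_neg (by simp)]
    exact der_inl_X i j'
  · rw [if_neg (by simp)]
    exact der_inr_C j _
  · change der k d m (Sum.inr j) (MvPolynomial.X j') = _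
    rw [der_inr_X]
    by_cases h : j = j'
    · subst h; simp
    · rw [if_neg h, if_neg (fun h' => h (Sum.inr_injective h'))]

end

section map

variable (k k' : Type*) [CommRing k] [CommRing k'] [Algebra k k'] (d m : ℕ)

/-- The base change map `k⟦T⟧[X] → k'⟦T⟧[X]`. -/
noncomputable def bc : PR k d m →+* PR k' d m :=
  MvPolynomial.map (MvPowerSeries.map (algebraMap k k'))

variable {k k' d m}

theorem bc_C (c : PS k d) : bc k k' d m (MvPolynomial.C c) =
    MvPolynomial.C (MvPowerSeries.map (algebraMap k k') c) := MvPolynomial.map_C _ _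

theorem bc_X (j : Fin m) : bc k k' d m (MvPolynomial.X j) = MvPolynomial.X j := MvPolynomial.map_X _ _

theorem map_pderiv (i : Fin d) (c : PS k d) :
    MvPowerSeries.map (algebraMap k k') (MvPowerSeries.pderiv k i c) =
      MvPowerSeries.pderiv k' i (MvPowerSeries.map (algebraMap k k') c) := by
  ext e
  simp [MvPowerSeries.coeff_pderiv]

theorem bc_der (l : Fin d ⊕ Fin m) (f : PR k d m) :
    bc k k' d m (der k d m l f) = der k' d m l (bc k k' d m f) := by
  induction f using MvPolynomial.induction_on with
  | C a =>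
    rcases l with i | j
    · rw [der_inl_C, bc_C, bc_C, der_inl_C, map_pderiv]
    · rw [der_inr_C, bc_C, der_inr_C, map_zero]
  | add p q hp hq => rw [map_add, map_add, map_add, map_add, hp, hq]
  | mul_X p j hp =>
    have hX : bc k k' d m (der k d m l (MvPolynomial.X j)) = der k' d m l (MvPolynomial.X j) := by
      rcases l with i | j'
      · rw [der_inl_X, der_inl_X, map_zero]
      · rw [der_inr_X, der_inr_X]
        split_ifs <;> simp
    rw [Derivation.leibniz, map_add, smul_eq_mul, smul_eq_mul, map_mul, map_mul, map_mul,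
      Derivation.leibniz, smul_eq_mul, smul_eq_mul, hp, bc_X, hX]

end map

end Groth.Agent.Ega4late.H544.Frame
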