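import Groth.Agent.Ega4late.H544.Frame
import Groth.Agent.Ega4late.H544.BaseCh
import Groth.Agent.Ega4late.H526.CBCPow
import Groth.Agent.Ega4late.H526.PowFlat
import Mathlib.RingTheory.Flat.FaithfullyFlat.Algebra
import Mathlib.RingTheory.IntegralClosure.IsIntegral.Basic

/-!
Presentation of the completed base change of a finite `k⟦T⟧`-algebra.
-/

set_option autoImplicit false
universe u

namespace Groth.Agent.Ega4late.H544.Pkg

open IsLocalRing TensorProduct Groth.Agent.Ega4late.H544.Frame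

section generic

variable {C C' A S : Type u} [CommRing C] [CommRing C'] [CommRing A] [CommRing S] [Algebra C C'] [Algebra C A]

/-- Base change of a surjection from a polynomial ring, transported along an isomorphism. -/
theorem exists_hom' (m : ℕ) (f : MvPolynomial (Fin m) C →ₐ[C] A) (hf : Function.Surjective f)
    (Φ : A ⊗[C] C' ≃+* S) (fS : A →+* S) (hΦ : ∀ a, Φ (a ⊗ₜ 1) = fS a) :
    ∃ g : MvPolynomial (Fin m) C' →+* S, Function.Surjective g ∧
      (∀ b, g (MvPolynomial.map (algebraMap C C') b) = fS (f.toRingHom b)) ∧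
      (∀ c, g (MvPolynomial.C c) = Φ (1 ⊗ₜ c)) ∧
      RingHom.ker g = (RingHom.ker f.toRingHom).map
        (MvPolynomial.map (algebraMap C C') : MvPolynomial (Fin m) C →+* MvPolynomial (Fin m) C') := by
  obtain ⟨g₀, hg₀, hg₁, hg₂, hg₃⟩ := BaseCh.exists_hom (C' := C') f hf
  refine ⟨(Φ : A ⊗[C] C' →+* S).comp g₀, Φ.surjective.comp hg₀, fun b ↦ ?_, fun c ↦ ?_, ?_⟩
  · change Φ (g₀ _) = _
    rw [hg₁, hΦ]
    rfl
  · change Φ (g₀ _) = _
    rw [hg₂]
  · refine Eq.trans ?_ hg₃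
    ext x
    rw [RingHom.mem_ker, RingHom.mem_ker]
    change Φ (g₀ x) = 0 ↔ _
    rw [EmbeddingLike.map_eq_zero_iff]

/-- The base change of an integral algebra is integral over the right factor. -/
theorem isIntegral_right [Algebra.IsIntegral C A] (Φ : A ⊗[C] C' ≃+* S) (h : C' →+* S)
    (hh : ∀ c, h c = Φ (1 ⊗ₜ c)) : h.IsIntegral := by
  intro x
  let e : C' ⊗[C] A ≃+* S := ((Algebra.TensorProduct.comm C C' A).toRingEquiv).trans Φ
  obtain ⟨p, hp, hp0⟩ := (inferInstance : Algebra.IsIntegral C' (C' ⊗[C] A)).isIntegral (e.symm x)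
  refine ⟨p, hp, ?_⟩
  have h1 := congrArg e hp0
  rw [map_zero] at h1
  have h2 : (e : C' ⊗[C] A →+* S).comp (algebraMap C' (C' ⊗[C] A)) = h := by
    refine RingHom.ext fun c ↦ ?_
    rw [hh]
    change Φ (Algebra.TensorProduct.comm C C' A (c ⊗ₜ 1)) = _
    rw [Algebra.TensorProduct.comm_tmul]
  have h3 := Polynomial.hom_eval₂ p (algebraMap C' (C' ⊗[C] A)) (e : C' ⊗[C] A →+* S) (e.symm x)
  rw [h2] at h3
  change e _ = Polynomial.eval₂ h (e (e.symm x)) p at h3
  rw [RingEquiv.apply_symm_apply] at h3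
  rw [← h3]
  exact h1

/-- Flatness of the base change. -/
theorem flat_left [Module.Flat C C'] (Φ : A ⊗[C] C' ≃+* S) (fS : A →+* S) (hΦ : ∀ a, Φ (a ⊗ₜ 1) = fS a) :
    fS.Flat := by
  have h1 : fS = (Φ : A ⊗[C] C' →+* S).comp (algebraMap A (A ⊗[C] C')) := RingHom.ext fun a ↦ (hΦ a).symm
  rw [h1]
  exact RingHom.Flat.comp (RingHom.flat_algebraMap_iff.mpr inferInstance)
    (RingHom.Flat.of_bijective Φ.bijective)

/-- Primes of `A` lift to the base change. -/
theorem exists_prime [Module.FaithfullyFlat C C'] (Φ : A ⊗[C] C' ≃+* S) (fS : A →+* S)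
    (hΦ : ∀ a, Φ (a ⊗ₜ 1) = fS a) (p : Ideal A) [p.IsPrime] :
    ∃ p' : Ideal S, p'.IsPrime ∧ p'.comap fS = p := by
  have h1 : fS = (Φ : A ⊗[C] C' →+* S).comp (algebraMap A (A ⊗[C] C')) := RingHom.ext fun a ↦ (hΦ a).symm
  obtain ⟨Q, hQ⟩ := PrimeSpectrum.comap_surjective_of_faithfullyFlat (A := A) (B := A ⊗[C] C') ⟨p, inferInstance⟩
  refine ⟨Q.asIdeal.comap (Φ.symm : S →+* A ⊗[C] C'), Ideal.comap_isPrime _ _, ?_⟩
  rw [h1, Ideal.comap_comap, ← RingHom.comp_assoc]
  have h2 : (Φ.symm : S →+* A ⊗[C] C').comp (Φ : A ⊗[C] C' →+* S) = RingHom.id _ := by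
    refine RingHom.ext fun x ↦ ?_
    exact Φ.symm_apply_apply x
  rw [h2, RingHom.id_comp]
  exact congrArg PrimeSpectrum.asIdeal hQ

end generic

section

/-- The package of maps attached to a base field extension. -/
theorem exists_pkg (k k' A : Type u) [Field k] [Field k'] [Algebra k k'] [CommRing A] [IsLocalRing A]
    [IsNoetherianRing A] [Algebra k A] (d m : ℕ) [Algebra (PS k d) A] [IsScalarTower k (PS k d) A]
    [Module.Finite (PS k d) A] [IsLocalHom (algebraMap (PS k d) A)]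
    (f : MvPolynomial (Fin m) (PS k d) →ₐ[PS k d] A) (hf : Function.Surjective f)
    (fS : A →+* AdicCompletion ((maximalIdeal A).map
      (Algebra.TensorProduct.includeLeft : A →ₐ[k] A ⊗[k] k')) (A ⊗[k] k'))
    (hfS : ∀ a, fS a = algebraMap (A ⊗[k] k') _ (a ⊗ₜ 1)) :
    ∃ g : PR k' d m →+* AdicCompletion ((maximalIdeal A).map
      (Algebra.TensorProduct.includeLeft : A →ₐ[k] A ⊗[k] k')) (A ⊗[k] k'),
      Function.Surjective g ∧
      (∀ b, g (bc k k' d m b) = fS (f.toRingHom b)) ∧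
      RingHom.ker g = (RingHom.ker f.toRingHom).map (bc k k' d m) ∧
      (g.comp MvPolynomial.C).IsIntegral ∧
      (bc k k' d m).Flat ∧
      fS.Flat ∧
      ∀ (p : Ideal A) [p.IsPrime], ∃ p' : Ideal (AdicCompletion ((maximalIdeal A).map
        (Algebra.TensorProduct.includeLeft : A →ₐ[k] A ⊗[k] k')) (A ⊗[k] k')), p'.IsPrime ∧ p'.comap fS = p := by
  obtain ⟨Φ, hΦ, -⟩ := H526.CBCPow.exists_ringEquiv k k' d A
  have hbc : (bc k k' d m) = MvPolynomial.map (algebraMap (PS k d) (PS k' d)) := rfl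
  have hΦ' : ∀ a, Φ (a ⊗ₜ 1) = fS a := fun a ↦ by rw [hΦ, hfS]
  obtain ⟨g, hg₀, hg₁, hg₂, hg₃⟩ := exists_hom' (C := PS k d) (C' := PS k' d) m f hf Φ fS hΦ'
  refine ⟨g, hg₀, ?_, ?_, ?_, ?_, ?_, ?_⟩
  · rw [hbc]
    exact hg₁
  · rw [hbc]
    exact hg₃
  · exact isIntegral_right (C := PS k d) (C' := PS k' d) Φ _ hg₂
  · rw [hbc]
    have := H526.PowFlat.flat k k' d
    exact BaseCh.flat_map (C := PS k d) (C' := PS k' d) (Fin m)
  · have := H526.PowFlat.flat k k' d
    exact flat_left (C := PS k d) (C' := PS k' d) Φ fS hΦ'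
  · intro p hp
    have := H526.PowFlat.faithfullyFlat k k' d
    exact exists_prime (C := PS k d) (C' := PS k' d) Φ fS hΦ' p

end

end Groth.Agent.Ega4late.H544.Pkg
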