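import Groth.Agent.Ega4late.H544.Pres
import Groth.Agent.Ega4late.H544.FibreRank
import Groth.Agent.Ega4late.H544.CotLin
import Groth.Agent.Ega41.NagFS0
import Mathlib.RingTheory.Etale.Kaehler
import Mathlib.RingTheory.Etale.Basic

/-!
The fibre of the completed module of differentials at a point, in terms of the cotangent space of
`k⟦T⟧[X]` (possibly after an extension of the field).
-/

set_option autoImplicit false
universe u

namespace Groth.Agent.Ega4late.H544.Point

open IsLocalRing TensorProduct Groth.Agent.Ega4late.H544.Frame Groth.Agent.Ega4late.H544.Pres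
  Groth.Agent.Ega4late.H544.CotLin Groth.Agent.Ega4late.H539.OmegaHat

section locder

variable {K B : Type u} [Field K] [CommRing B] [Algebra K B] {ι : Type} (D : ι → Derivation K B B)
  (P : Ideal B) [P.IsPrime] (R : Type u) [CommRing R] [IsLocalRing R] [Algebra B R] [IsLocalization.AtPrime R P]

include P in
theorem exists_locDer (l : ι) :
    ∃ E : Derivation ℤ R (ResidueField R), ∀ f, E (algebraMap B R f) = algebraMap B (ResidueField R) (D l f) := by
  letI : Algebra K R := ((algebraMap B R).comp (algebraMap K B)).toAlgebra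
  haveI : IsScalarTower K B R := IsScalarTower.of_algebraMap_eq fun _ ↦ rfl
  have h1 : Algebra.FormallyEtale B R := Algebra.FormallyEtale.of_isLocalization P.primeCompl
  have hbc := KaehlerDifferential.isBaseChange_of_formallyEtale K B R
  let D₀ : Derivation K B (ResidueField R) := (Algebra.linearMap B (ResidueField R)).compDer (D l)
  let g : Ω[R⁄K] →ₗ[R] (ResidueField R) := hbc.lift D₀.liftKaehlerDifferential
  refine ⟨Ega41.NagZero.toInt (g.compDer (KaehlerDifferential.D K R)), fun a => ?_⟩
  have h2 := hbc.lift_eq D₀.liftKaehlerDifferential (KaehlerDifferential.D K B a)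
  rw [KaehlerDifferential.map_D, Derivation.liftKaehlerDifferential_comp_D] at h2
  exact h2

/-- The frame of derivations with values in the residue field of a point. -/
noncomputable def locDer (l : ι) : Derivation ℤ R (ResidueField R) := (exists_locDer D P R l).choose

theorem locDer_algebraMap (l : ι) (f : B) :
    locDer D P R l (algebraMap B R f) = algebraMap B (ResidueField R) (D l f) :=
  (exists_locDer D P R l).choose_spec f

omit [Algebra K B] [Field K] in
theorem mem_maximalIdeal_iff (f : B) : algebraMap B R f ∈ maximalIdeal R ↔ f ∈ P := by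
  rw [← Ideal.mem_comap]
  have : (maximalIdeal R).comap (algebraMap B R) = P := IsLocalization.AtPrime.under_maximalIdeal R P
  rw [this]

omit [Algebra K B] [Field K] in
theorem algebraMap_residue_eq_zero_iff (f : B) : algebraMap B (ResidueField R) f = 0 ↔ f ∈ P := by
  rw [← mem_maximalIdeal_iff P R, ← residue_eq_zero_iff]
  rfl

/-- Over a perfect field, the cotangent space of a point injects via the frame. -/
theorem theta_injective_of_density [Fintype ι]
    (hdens : ∀ δ : Derivation ℤ B (ResidueField R), ∃ l : ι → ResidueField R, ∀ f : B,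
        algebraMap B (ResidueField R) f = 0 →
      δ f = ∑ i, l i * algebraMap B (ResidueField R) (D i f)) :
    Function.Injective (theta (locDer D P R)) := by
  letI : Algebra K R := ((algebraMap B R).comp (algebraMap K B)).toAlgebra
  apply theta_injective
  intro φ
  obtain ⟨δ, hδ⟩ := Ega41.NagFS.exists_derivation_cotangent (k := K) φ
  let δ' : Derivation ℤ B (ResidueField R) := Ega41.NagZero.mkInt
    (((δ : R →+ ResidueField R)).comp (algebraMap B R : B →+ R)) (fun a b ↦ by
      change δ (algebraMap B R (a * b)) = a • δ (algebraMap B R b) + b • δ (algebraMap B R a)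
      rw [map_mul, Derivation.leibniz, algebraMap_smul, algebraMap_smul])
  have hδ' : ∀ f, δ' f = δ (algebraMap B R f) := fun f ↦ rfl
  obtain ⟨c, hc⟩ := hdens δ'
  refine ⟨c, fun x ↦ ?_⟩
  obtain ⟨⟨f, s⟩, hfs⟩ := IsLocalization.surj P.primeCompl (x : R)
  simp only at hfs
  have hs0 : algebraMap B (ResidueField R) s ≠ 0 := by
    rw [Ne, algebraMap_residue_eq_zero_iff P R]
    exact s.2
  have hf : f ∈ P := by
    rw [← mem_maximalIdeal_iff P R, ← hfs]
    exact Ideal.mul_mem_right _ _ x.2
  have key : ∀ E : Derivation ℤ R (ResidueField R),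
      E (algebraMap B _ f) = algebraMap B (ResidueField R) s * E (x : R) := by
    intro E
    rw [← hfs, Derivation.leibniz]
    have h1 : (x : R) • E (algebraMap B _ (s : B)) = 0 := by
      rw [← algebraMap_smul (ResidueField R) (x : R)]
      have : algebraMap R (ResidueField R) x = 0 := (residue_eq_zero_iff _).mpr x.2
      rw [this, zero_smul]
    rw [h1, zero_add, ← algebraMap_smul (ResidueField R), smul_eq_mul]
    rfl
  have h2 := hc f ((algebraMap_residue_eq_zero_iff P R f).mpr hf)
  have h3 : δ' f = algebraMap B (ResidueField R) s * φ ((maximalIdeal _).toCotangent x) := by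
    rw [← hδ, hδ']
    exact key δ
  rw [h3] at h2
  have h4 : ∑ i, c i * algebraMap B (ResidueField R) (D i f) =
      algebraMap B (ResidueField R) s * ∑ i, c i * locDer D P R i (x : R) := by
    rw [Finset.mul_sum]
    refine Finset.sum_congr rfl fun i _ ↦ ?_
    rw [← locDer_algebraMap D P R, key (locDer D P R i)]
    ring
  rw [h4] at h2
  exact mul_left_cancel₀ hs0 h2

end locder

section rank

variable {k A : Type u} [Field k] [CommRing A] [IsLocalRing A] [IsNoetherianRing A] [Algebra k A]
  [IsAdicComplete (maximalIdeal A) A] [Module.Finite k (ResidueField A)] {d m : ℕ} (ψ : PR k d m →+* A)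
variable {K B : Type u} [Field K] [CommRing B] [Algebra K B] (D : (Fin d ⊕ Fin m) → Derivation K B B)
  (φ : PR k d m →+* B) (P : Ideal B) [P.IsPrime]
  (R : Type u) [CommRing R] [IsLocalRing R] [Algebra B R] [IsLocalization.AtPrime R P]

/-- The ideal of the relations in the local ring of a point. -/
noncomputable def relIdeal : Ideal R :=
  Ideal.span ((fun f ↦ algebraMap B R (φ f)) '' (RingHom.ker ψ : Set (PR k d m)))

omit [IsLocalRing A] [IsNoetherianRing A] [Algebra k A] [IsAdicComplete (maximalIdeal A) A]
  [Module.Finite k (ResidueField A)] [Field K] [Algebra K B] in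
include P in
theorem relIdeal_le (hI : ∀ f, ψ f = 0 → φ f ∈ P) : relIdeal ψ φ R ≤ maximalIdeal R := by
  rw [relIdeal, Ideal.span_le]
  rintro _ ⟨f, hf, rfl⟩
  exact (mem_maximalIdeal_iff P R (φ f)).mpr (hI f hf)

/-- The rank of the fibre of the completed module of differentials. -/
theorem finrank_fibre (hψ : Function.Surjective ψ)
    (hk : ∀ r : k, ψ (MvPolynomial.C (MvPowerSeries.C r)) = algebraMap k A r)
    (hT : ∀ i, ψ (var k d m (Sum.inl i)) ∈ maximalIdeal A)
    (hφ : ∀ l f, φ (der k d m l f) = D l (φ f))
    (hI : ∀ f, ψ f = 0 → φ f ∈ P)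
    [Algebra A (ResidueField R)]
    (hcomp : ∀ f, algebraMap A (ResidueField R) (ψ f) = algebraMap B (ResidueField R) (φ f)) :
    Module.finrank (ResidueField R) (ResidueField R ⊗[A] OmHat k A) +
      Module.finrank (ResidueField R)
        ((cotSpan (relIdeal ψ φ R : Set R)).map (theta (locDer D P R))) = d + m := by
  obtain ⟨π, hπ, hker, -⟩ := presentation ψ hψ hk hT
  have h1 := FibreRank.finrank_add_finrank (κ := ResidueField R) π hπ _ hker
  rw [Fintype.card_sum, Fintype.card_fin, Fintype.card_fin] at h1
  have hS : (fun f ↦ algebraMap B R (φ f)) '' (RingHom.ker ψ : Set (PR k d m)) ⊆ maximalIdeal R := by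
    rintro _ ⟨f, hf, rfl⟩
    exact (mem_maximalIdeal_iff P R (φ f)).mpr (hI f hf)
  have hfun : (fun (f : PR k d m) (l : Fin d ⊕ Fin m) ↦ locDer D P R l (algebraMap B R (φ f))) =
      fun f l ↦ algebraMap A (ResidueField R) (row ψ f l) := by
    funext f l
    rw [locDer_algebraMap, ← hφ, ← hcomp]
    rfl
  have hsub : (cotSpan (relIdeal ψ φ R : Set R)).map (theta (locDer D P R)) =
      Submodule.span (ResidueField R) ((fun v : (Fin d ⊕ Fin m) → A ↦ fun i ↦ algebraMap A (ResidueField R) (v i)) ''
        (row ψ '' (RingHom.ker ψ : Set (PR k d m)))) := by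
    rw [relIdeal, cotSpan_span _ hS, map_theta_cotSpan _ _ hS, ← Set.image_comp, ← Set.image_comp]
    simp only [Function.comp_def]
    rw [hfun]
  rw [hsub]
  exact h1

end rank

end Groth.Agent.Ega4late.H544.Point
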