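import Groth.Agent.Ega41.TrivExt
import Mathlib.Algebra.MvPolynomial.PDeriv
import Mathlib.RingTheory.MvPowerSeries.Derivative

/-!
Extension of derivations to polynomial rings, and the standard frame of derivations on
`k⟦T_1, …, T_d⟧[X_1, …, X_m]`.
-/

set_option autoImplicit false
universe u

namespace Groth.Agent.Ega4late.H544.PolyDer

open Groth.Agent.Ega41 MvPolynomial

/-- A derivation of the coefficients and arbitrary values on the variables determine a derivation on
the polynomial ring. -/
theorem exists_derivation {k C σ M : Type*} [CommRing k] [CommRing C] [Algebra k C]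
    [AddCommGroup M] [Module (MvPolynomial σ C) M] [Module C M] [IsScalarTower C (MvPolynomial σ C) M]
    [Module k M] [IsScalarTower k C M] (δ : Derivation k C M) (v : σ → M) :
    ∃ D : Derivation k (MvPolynomial σ C) M, (∀ c, D (MvPolynomial.C c) = δ c) ∧ ∀ j, D (X j) = v j := by
  let B := MvPolynomial σ C
  have hsm : ∀ (c : C) (m : M), (MvPolynomial.C c : B) • m = c • m := fun c m => by
    rw [← algebraMap_eq, algebraMap_smul]
  let φ : C →+* TrivExt.Ext B M :=
    { toFun := fun c => ⟨MvPolynomial.C c, δ c⟩
      map_one' := TrivExt.Ext.ext' (by simp) (by simp)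
      map_mul' := fun a b => TrivExt.Ext.ext' (by simp)
        (by simp only [Derivation.leibniz, TrivExt.Ext.snd_mul, hsm])
      map_zero' := TrivExt.Ext.ext' (by simp) (by simp)
      map_add' := fun a b => TrivExt.Ext.ext' (by simp) (by simp) }
  let Φ : B →+* TrivExt.Ext B M := eval₂Hom φ (fun j => ⟨X j, v j⟩)
  have hΦC : ∀ c, Φ (MvPolynomial.C c) = ⟨MvPolynomial.C c, δ c⟩ := fun c => eval₂Hom_C _ _ _
  have hΦX : ∀ j, Φ (X j) = ⟨X j, v j⟩ := fun j => eval₂Hom_X' _ _ _
  have hfst : ∀ f, (Φ f).fst = f := by
    intro f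
    induction f using MvPolynomial.induction_on with
    | C a => rw [hΦC]
    | add p q hp hq => rw [map_add, TrivExt.Ext.fst_add, hp, hq]
    | mul_X p j hp => rw [map_mul, TrivExt.Ext.fst_mul, hp, hΦX]
  have hk : ∀ (r : k) (f : B), r • f = (MvPolynomial.C (algebraMap k C r) : B) * f := fun r f => by
    rw [← smul_eq_C_mul, algebraMap_smul]
  let D : Derivation k B M :=
    { toFun := fun f => (Φ f).snd
      map_add' := fun f g => by rw [map_add, TrivExt.Ext.snd_add]
      map_smul' := fun r f => by
        rw [hk, map_mul, TrivExt.Ext.snd_mul, hΦC]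
        simp only [Derivation.map_algebraMap, smul_zero, add_zero, hsm, algebraMap_smul,
          RingHom.id_apply]
      map_one_eq_zero' := by
        change (Φ 1).snd = 0
        rw [map_one, TrivExt.Ext.snd_one]
      leibniz' := fun f g => by
        change (Φ (f * g)).snd = f • (Φ g).snd + g • (Φ f).snd
        rw [map_mul, TrivExt.Ext.snd_mul, hfst, hfst] }
  exact ⟨D, fun c => congrArg TrivExt.Ext.snd (hΦC c), fun j => congrArg TrivExt.Ext.snd (hΦX j)⟩

/-- A derivation on a polynomial ring is determined by its values on constants and variables. -/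
theorem derivation_ext {k C σ M : Type*} [CommRing k] [CommRing C] [Algebra k C]
    [AddCommGroup M] [Module (MvPolynomial σ C) M] 
    [Module k M] (D₁ D₂ : Derivation k (MvPolynomial σ C) M)
    (hC : ∀ c, D₁ (MvPolynomial.C c) = D₂ (MvPolynomial.C c)) (hX : ∀ j, D₁ (X j) = D₂ (X j)) :
    D₁ = D₂ := by
  ext f
  induction f using MvPolynomial.induction_on with
  | C a => exact hC a
  | add p q hp hq => rw [map_add, map_add, hp, hq]
  | mul_X p j hp => rw [Derivation.leibniz, Derivation.leibniz, hp, hX]

end Groth.Agent.Ega4late.H544.PolyDer
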