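import Groth.Agent.Ega4late.H544.Frame
import Groth.Agent.Ega4late.H539.OmegaHat
import Groth.Agent.Ega41.NagZero

/-!
Presentation of the completed module of differentials of a quotient of `k⟦T_1, …, T_d⟧[X_1, …, X_m]`.
-/

set_option autoImplicit false
universe u v

namespace Groth.Agent.Ega4late.H544.Pres

open Groth.Agent.Ega4late.H544.Frame Groth.Agent.Ega4late.H539.OmegaHat IsLocalRing

section uniq

variable {k : Type u} {A : Type v} [Field k] [CommRing A] [IsLocalRing A] {d m : ℕ} (ψ : PR k d m →+* A)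

/-- A derivation along `ψ` with values in a separated module is determined by its values on the variables. -/
theorem eq_zero_of_var {M : Type*} [AddCommGroup M] [Module A M] [IsHausdorff (maximalIdeal A) M]
    (hT : ∀ i, ψ (var k d m (Sum.inl i)) ∈ maximalIdeal A) (g : PR k d m → M)
    (hadd : ∀ f f', g (f + f') = g f + g f') (hmul : ∀ f f', g (f * f') = ψ f • g f' + ψ f' • g f)
    (hk : ∀ r : k, g (MvPolynomial.C (MvPowerSeries.C r)) = 0) (hvar : ∀ l, g (var k d m l) = 0)
    (f : PR k d m) : g f = 0 := by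
  letI : Module (PR k d m) M := Module.compHom M ψ
  letI : Module (PS k d) M := Module.compHom M (ψ.comp MvPolynomial.C)
  letI : Module k M := Module.compHom M ((ψ.comp MvPolynomial.C).comp MvPowerSeries.C)
  haveI : IsScalarTower k (PS k d) M := ⟨fun x y z ↦ by
    change ψ (MvPolynomial.C (x • y)) • z = ψ (MvPolynomial.C (MvPowerSeries.C x)) • (ψ (MvPolynomial.C y) • z)
    rw [smul_smul, ← map_mul, ← map_mul, MvPowerSeries.smul_eq_C_mul]⟩
  have hle : (Ega41.MvPS.varIdeal (Fin d) k).map (ψ.comp MvPolynomial.C) ≤ maximalIdeal A := by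
    rw [Ega41.MvPS.varIdeal, Ideal.map_span, Ideal.span_le]
    rintro _ ⟨_, ⟨i, rfl⟩, rfl⟩
    exact hT i
  haveI : IsHausdorff (Ega41.MvPS.varIdeal (Fin d) k) M := by
    refine ⟨fun x hx ↦ IsHausdorff.haus (I := maximalIdeal A) inferInstance x fun n ↦ ?_⟩
    have h1 := hx n
    rw [SModEq.zero] at h1 ⊢
    have h2 : ∀ (J : Ideal (PS k d)) (J' : Ideal A) (hJ : J.map (ψ.comp MvPolynomial.C) ≤ J'),
        ∀ y ∈ (J • ⊤ : Submodule (PS k d) M), y ∈ (J' • ⊤ : Submodule A M) := by
      intro J J' hJ y hy
      refine Submodule.smul_induction_on hy (fun r hr z _ ↦ ?_) (fun a b ha hb ↦ Submodule.add_mem _ ha hb)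
      exact Submodule.smul_mem_smul (hJ (Ideal.mem_map_of_mem _ hr)) trivial
    refine h2 _ _ ?_ x h1
    rw [Ideal.map_pow]
    exact Ideal.pow_right_mono hle n
  have hone : g 1 = 0 := by
    have := hk 1
    rwa [map_one, map_one] at this
  let D : Derivation k (PS k d) M :=
    { toFun := fun c ↦ g (MvPolynomial.C c)
      map_add' := fun a b ↦ by rw [map_add, hadd]
      map_smul' := fun r c ↦ by
        change g (MvPolynomial.C (r • c)) = ψ (MvPolynomial.C (MvPowerSeries.C r)) • g (MvPolynomial.C c)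
        rw [MvPowerSeries.smul_eq_C_mul, map_mul, hmul, hk, smul_zero, add_zero]
      map_one_eq_zero' := by
        change g (MvPolynomial.C 1) = 0
        rw [map_one, hone]
      leibniz' := fun a b ↦ by
        change g (MvPolynomial.C (a * b)) = ψ (MvPolynomial.C a) • g (MvPolynomial.C b) +
          ψ (MvPolynomial.C b) • g (MvPolynomial.C a)
        rw [map_mul, hmul] }
  have hC : ∀ c : PS k d, g (MvPolynomial.C c) = 0 := fun c ↦
    Ega41.NagZero.derivation_eq_zero D (fun i ↦ hvar (Sum.inl i)) c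
  induction f using MvPolynomial.induction_on with
  | C a => exact hC a
  | add p q hp hq => rw [hadd, hp, hq, add_zero]
  | mul_X p j hp => 
    have := hvar (Sum.inr j)
    rw [hmul, hp, smul_zero, add_zero]
    change ψ p • g (var k d m (Sum.inr j)) = 0
    rw [this, smul_zero]

end uniq

section pres

variable {k A : Type u} [Field k] [CommRing A] [IsLocalRing A] [IsNoetherianRing A] [Algebra k A]
  [IsAdicComplete (maximalIdeal A) A] [Module.Finite k (ResidueField A)] {d m : ℕ} (ψ : PR k d m →+* A)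

/-- The Jacobian row of `f`, reduced along `ψ`. -/
noncomputable def row (f : PR k d m) : (Fin d ⊕ Fin m) → A := fun l ↦ ψ (der k d m l f)

omit [IsLocalRing A] [IsNoetherianRing A] [Algebra k A] [IsAdicComplete (maximalIdeal A) A]
  [Module.Finite k (ResidueField A)] in
theorem row_add (f g : PR k d m) : row ψ (f + g) = row ψ f + row ψ g := by
  ext l; simp [row]

omit [IsLocalRing A] [IsNoetherianRing A] [Algebra k A] [IsAdicComplete (maximalIdeal A) A]
  [Module.Finite k (ResidueField A)] in
theorem row_mul (f g : PR k d m) : row ψ (f * g) = ψ f • row ψ g + ψ g • row ψ f := by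
  ext l; simp [row, Derivation.leibniz]

omit [IsLocalRing A] [IsNoetherianRing A] [Algebra k A] [IsAdicComplete (maximalIdeal A) A]
  [Module.Finite k (ResidueField A)] in
theorem row_C (r : k) : row ψ (MvPolynomial.C (MvPowerSeries.C r)) = 0 := by
  ext l
  have : (MvPolynomial.C (MvPowerSeries.C r) : PR k d m) = algebraMap k _ r := rfl
  rw [row, this, Derivation.map_algebraMap, map_zero, Pi.zero_apply]

omit [IsLocalRing A] [IsNoetherianRing A] [Algebra k A] [IsAdicComplete (maximalIdeal A) A]
  [Module.Finite k (ResidueField A)] in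
theorem row_var (l : Fin d ⊕ Fin m) : row ψ (var k d m l) = Pi.single l 1 := by
  ext l'
  rw [row, der_var]
  by_cases h : l' = l
  · subst h; simp
  · rw [if_neg h, map_zero, Pi.single_eq_of_ne h]

omit [IsLocalRing A] [IsNoetherianRing A] [Algebra k A] [IsAdicComplete (maximalIdeal A) A]
  [Module.Finite k (ResidueField A)] in
theorem row_sub (f g : PR k d m) : row ψ (f - g) = row ψ f - row ψ g := by
  ext l; simp [row]

/-- The submodule generated by the Jacobian rows of the relations. -/
noncomputable def rel : Submodule A ((Fin d ⊕ Fin m) → A) :=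
  Submodule.span A (row ψ '' (RingHom.ker ψ : Set (PR k d m)))

/-- The presentation of the completed module of differentials. -/
theorem presentation (hψ : Function.Surjective ψ)
    (hk : ∀ r : k, ψ (MvPolynomial.C (MvPowerSeries.C r)) = algebraMap k A r)
    (hT : ∀ i, ψ (var k d m (Sum.inl i)) ∈ maximalIdeal A) :
    ∃ π : ((Fin d ⊕ Fin m) → A) →ₗ[A] OmHat k A, Function.Surjective π ∧ LinearMap.ker π = rel ψ ∧
      ∀ f, π (row ψ f) = dHat k A (ψ f) := by
  classical
  let π : ((Fin d ⊕ Fin m) → A) →ₗ[A] OmHat k A :=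
    Fintype.linearCombination A (fun l ↦ dHat k A (ψ (var k d m l)))
  have hπ_single : ∀ l, π (Pi.single l 1) = dHat k A (ψ (var k d m l)) := fun l ↦ by
    simp only [π, Fintype.linearCombination_apply_single, one_smul]
  haveI : IsAdicComplete (maximalIdeal A) (OmHat k A) := Ega1.LimitSystem.isAdicComplete_of_finite
  have hrow : ∀ f, π (row ψ f) = dHat k A (ψ f) := by
    intro f
    rw [← sub_eq_zero]
    refine eq_zero_of_var ψ hT (fun f ↦ π (row ψ f) - dHat k A (ψ f)) ?_ ?_ ?_ ?_ f
    · intro f f'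
      simp only [row_add, map_add]
      abel
    · intro f f'
      simp only [row_mul, map_add, map_smul, map_mul, Derivation.leibniz]
      simp only [smul_sub]
      abel
    · intro r
      simp only [row_C, map_zero, hk, Derivation.map_algebraMap, sub_zero]
    · intro l
      simp only [row_var, hπ_single, sub_self]
  let W := ((Fin d ⊕ Fin m) → A) ⧸ rel ψ
  have hmem : ∀ f f', ψ f = ψ f' → row ψ f - row ψ f' ∈ rel ψ := by
    intro f f' h
    rw [← row_sub]
    exact Submodule.subset_span ⟨f - f', by rw [SetLike.mem_coe, RingHom.mem_ker, map_sub, h, sub_self], rfl⟩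
  let σ := Function.surjInv hψ
  have hσ : ∀ a, ψ (σ a) = a := Function.surjInv_eq hψ
  have hδ : ∀ f, (rel ψ).mkQ (row ψ (σ (ψ f))) = (rel ψ).mkQ (row ψ f) := fun f ↦ by
    rw [← sub_eq_zero, ← map_sub, Submodule.mkQ_apply, Submodule.Quotient.mk_eq_zero]
    exact hmem _ _ (hσ _)
  let δ : Derivation k A W :=
    { toFun := fun a ↦ (rel ψ).mkQ (row ψ (σ a))
      map_add' := fun a b ↦ by
        obtain ⟨f, rfl⟩ := hψ a
        obtain ⟨g, rfl⟩ := hψ b
        rw [← map_add ψ, hδ, hδ, hδ, row_add, map_add]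
      map_smul' := fun r a ↦ by
        obtain ⟨f, rfl⟩ := hψ a
        have : r • ψ f = ψ (MvPolynomial.C (MvPowerSeries.C r) * f) := by
          rw [map_mul, hk, Algebra.smul_def]
        rw [this, hδ, hδ, row_mul, row_C, smul_zero, add_zero, map_smul, hk, algebraMap_smul]
        rfl
      map_one_eq_zero' := by
        change (rel ψ).mkQ (row ψ (σ 1)) = 0
        rw [← map_one ψ, hδ]
        have : row ψ 1 = 0 := by
          have := row_C ψ (1 : k)
          rwa [map_one, map_one] at this
        rw [this, map_zero]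
      leibniz' := fun a b ↦ by
        obtain ⟨f, rfl⟩ := hψ a
        obtain ⟨g, rfl⟩ := hψ b
        change (rel ψ).mkQ (row ψ (σ (ψ f * ψ g))) = ψ f • (rel ψ).mkQ (row ψ (σ (ψ g))) +
          ψ g • (rel ψ).mkQ (row ψ (σ (ψ f)))
        rw [← map_mul ψ, hδ, hδ, hδ, row_mul, map_add, map_smul, map_smul] }
  let g : OmHat k A →ₗ[A] W := liftHat δ
  have hg : ∀ f, g (dHat k A (ψ f)) = (rel ψ).mkQ (row ψ f) := fun f ↦ by
    rw [liftHat_dHat]
    exact hδ f
  have hgπ : g ∘ₗ π = (rel ψ).mkQ := by
    apply LinearMap.pi_ext'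
    intro l
    ext
    simp only [LinearMap.comp_apply, LinearMap.single_apply, hπ_single, hg, row_var]
  refine ⟨π, ?_, le_antisymm ?_ ?_, hrow⟩
  · rw [← LinearMap.range_eq_top, eq_top_iff, ← span_range_dHat k A, Submodule.span_le]
    rintro _ ⟨a, rfl⟩
    obtain ⟨f, rfl⟩ := hψ a
    exact ⟨row ψ f, hrow f⟩
  · intro v hv
    have h1 : (rel ψ).mkQ v = 0 := by
      rw [← hgπ, LinearMap.comp_apply, LinearMap.mem_ker.mp hv, map_zero]
    rwa [Submodule.mkQ_apply, Submodule.Quotient.mk_eq_zero] at h1
  · rw [rel, Submodule.span_le]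
    rintro _ ⟨f, hf, rfl⟩
    rw [SetLike.mem_coe, LinearMap.mem_ker, hrow, (RingHom.mem_ker.mp hf : ψ f = 0), map_zero]

end pres

end Groth.Agent.Ega4late.H544.Pres
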