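import Groth.Agent.Ega4late.H544.Frame
import Groth.Agent.Ega4late.H543.PowFinite
import Mathlib.RingTheory.FiniteType
import Mathlib.RingTheory.IntegralClosure.IsIntegral.Basic

/-!
A complete Noetherian local `k`-algebra with residue field finite over `k` is a finite algebra over some
`k⟦T_1, …, T_d⟧`, and a quotient of some `k⟦T_1, …, T_d⟧[X_1, …, X_m]`.
-/

set_option autoImplicit false
universe u

namespace Groth.Agent.Ega4late.H544.Struct

open IsLocalRing TensorProduct Groth.Agent.Ega4late.H544.Frame

/-- The Cohen structure presentation. -/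
theorem exists_struct (k A : Type u) [Field k] [CommRing A] [IsLocalRing A] [IsNoetherianRing A]
    [Algebra k A] [IsAdicComplete (maximalIdeal A) A] [Module.Finite k (ResidueField A)] :
    ∃ (d m : ℕ) (_ : Algebra (PS k d) A) (_ : IsScalarTower k (PS k d) A) (_ : Module.Finite (PS k d) A)
      (_ : IsLocalHom (algebraMap (PS k d) A)) (f : MvPolynomial (Fin m) (PS k d) →ₐ[PS k d] A),
      Function.Surjective f ∧ ∀ i, algebraMap (PS k d) A (MvPowerSeries.X i) ∈ maximalIdeal A := by
  obtain ⟨d, x, hx⟩ := Submodule.fg_iff_exists_fin_generating_family.mp (maximalIdeal A).fg_of_isNoetherianRing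
  have hxm : ∀ i, x i ∈ maximalIdeal A := fun i ↦ hx ▸ Submodule.subset_span (Set.mem_range_self i)
  let w := Ega41.PowEval.powEval (R := k) (maximalIdeal A) x hxm
  letI : Algebra (PS k d) A := w.toRingHom.toAlgebra
  have hw : ∀ c, algebraMap (PS k d) A c = w c := fun _ ↦ rfl
  have hfin : Module.Finite (PS k d) A := H543.PowFinite.finite_powEval x hxm (hx ▸ Ideal.le_radical)
  have hloc : IsLocalHom (algebraMap (PS k d) A) := H543.PowFinite.isLocalHom_powEval x hxm
  have htow : IsScalarTower k (PS k d) A := IsScalarTower.of_algebraMap_eq fun r ↦ by rw [hw, w.commutes]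
  have hft : Algebra.FiniteType (PS k d) A := inferInstance
  obtain ⟨m, f, hf⟩ := Algebra.FiniteType.iff_quotient_mvPolynomial''.mp hft
  refine ⟨d, m, inferInstance, htow, hfin, hloc, f, hf, fun i ↦ ?_⟩
  rw [hw, Ega41.PowEval.powEval_X]
  exact hxm i

section

variable {k A : Type u} [Field k] [CommRing A] [IsLocalRing A] [Algebra k A] {d m : ℕ}
  [Algebra (PS k d) A] (f : MvPolynomial (Fin m) (PS k d) →ₐ[PS k d] A)

omit [IsLocalRing A] in
theorem apply_C_C [IsScalarTower k (PS k d) A] (r : k) :
    f.toRingHom (MvPolynomial.C (MvPowerSeries.C r)) = algebraMap k A r := by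
  have h1 : f.toRingHom (MvPolynomial.C (MvPowerSeries.C r)) = algebraMap (PS k d) A (MvPowerSeries.C r) :=
    f.commutes _
  rw [h1, IsScalarTower.algebraMap_apply k (PS k d) A]
  rfl

omit [Algebra k A] in
theorem apply_var_inl (hX : ∀ i, algebraMap (PS k d) A (MvPowerSeries.X i) ∈ maximalIdeal A) (i : Fin d) :
    f.toRingHom (var k d m (Sum.inl i)) ∈ maximalIdeal A := by
  have h1 : f.toRingHom (var k d m (Sum.inl i)) = algebraMap (PS k d) A (MvPowerSeries.X i) := f.commutes _
  rw [h1]
  exact hX i

omit [IsLocalRing A] [Algebra k A] in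
theorem isIntegral_comp_C [Module.Finite (PS k d) A] :
    (f.toRingHom.comp (MvPolynomial.C : PS k d →+* PR k d m)).IsIntegral := by
  have h1 : f.toRingHom.comp (MvPolynomial.C : PS k d →+* PR k d m) = algebraMap (PS k d) A :=
    RingHom.ext fun c ↦ f.commutes c
  rw [h1]
  exact Algebra.isIntegral_def.mp inferInstance

end

end Groth.Agent.Ega4late.H544.Struct
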